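import Mathlib
import Cfsg.Agent.Lib.McKay.Final
import Cfsg.Agent.Lib.Coprime.Abelian
import Cfsg.Agent.S4447

/-! The Isaacs correspondence over a section of class two: an involutory automorphism reduces it
to the Glauberman correspondence for the prime two. -/

set_option autoImplicit false

namespace CfsgLib.McKay

open Cfsg CfsgLib.Char CfsgLib.CharDeep CfsgLib.ChDeg CfsgLib.Glaub CfsgLib.Coprime Subgroup
open scoped ComplexConjugate Pointwise commutatorElement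

variable {X : Type*} [Group X]

/-- Pairs of elements of `K` that are inverse to each other modulo the derived subgroup. -/
def antiPairs (K : Subgroup X) : Subgroup (X × X) where
  carrier := {x | x.1 ∈ K ∧ x.2 ∈ K ∧ x.1 * x.2 ∈ ⁅K, K⁆}
  one_mem' := ⟨K.one_mem, K.one_mem, by simp⟩
  mul_mem' := fun {a b} ha hb => ⟨K.mul_mem ha.1 hb.1, K.mul_mem ha.2.1 hb.2.1, by
    have h1 := conj_mem_of_le_normalizer (le_normalizer_commutator le_normalizer le_normalizer) ha.1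
      (commutator_mem_commutator hb.1 ha.2.1)
    have h2 := mul_mem (mul_mem h1 ha.2.2) hb.2.2
    simpa [commutatorElement_def, mul_assoc] using h2⟩
  inv_mem' := fun {a} ha => ⟨K.inv_mem ha.1, K.inv_mem ha.2.1, by
    have h1 := conj_mem_of_le_normalizer' (le_normalizer_commutator le_normalizer le_normalizer)
      ha.1 (inv_mem ha.2.2)
    simpa [mul_assoc] using h1⟩

theorem le_normalizer_antiPairs {K A : Subgroup X} (hA : A ≤ normalizer (K : Set X)) :
    A.map ((MonoidHom.id X).prod (MonoidHom.id X)) ≤ normalizer (antiPairs K : Set (X × X)) := by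
  have key : ∀ a ∈ A, ∀ x ∈ antiPairs K, (a, a) * x * (a, a)⁻¹ ∈ antiPairs K := fun a ha x hx =>
    ⟨conj_mem_of_le_normalizer hA ha hx.1, conj_mem_of_le_normalizer hA ha hx.2.1, by
      have h1 := conj_mem_of_le_normalizer (le_normalizer_commutator hA hA) ha hx.2.2
      simpa [mul_assoc] using h1⟩
  rintro _ ⟨a, ha, rfl⟩
  refine mem_normalizer_iff.mpr fun x => ⟨key a ha x, fun h => ?_⟩
  have h1 := key a⁻¹ (A.inv_mem ha) _ h
  convert h1 using 1
  ext <;> simp [mul_assoc]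

theorem commutator_antiPairs {K : Subgroup X} (hZK : ⁅K, K⁆ ≤ centralizer (K : Set X)) :
    ⁅antiPairs K, antiPairs K⁆ ≤ (MonoidHom.fst X X).eqLocus (MonoidHom.snd X X) := by
  refine commutator_le.mpr fun a ha b hb => ?_
  change ⁅a.1, b.1⁆ = ⁅a.2, b.2⁆
  obtain ⟨z, hz⟩ : ∃ z, z = a.1 * a.2 := ⟨_, rfl⟩
  obtain ⟨w, hw⟩ : ∃ w, w = b.1 * b.2 := ⟨_, rfl⟩
  have h1 : ∀ k ∈ K, Commute k z := fun k hk => hZK (hz ▸ ha.2.2) k hk
  have h2 : ∀ k ∈ K, Commute k w := fun k hk => hZK (hw ▸ hb.2.2) k hk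
  have h3 : ∀ k ∈ K, Commute k ⁅a.1, b.1⁆ := fun k hk =>
    hZK (commutator_mem_commutator ha.1 hb.1) k hk
  have ea : a.2 = a.1⁻¹ * z := by rw [hz, inv_mul_cancel_left]
  have eb : b.2 = b.1⁻¹ * w := by rw [hw, inv_mul_cancel_left]
  have h4 : ⁅a.2, b.2⁆ = ⁅a.1⁻¹, b.2⁆ := by
    rw [ea, commutatorElement_def, commutatorElement_def, mul_assoc _ z, ← (h1 _ hb.2.1).eq]
    group
  have h5 : ⁅a.1⁻¹, b.2⁆ = ⁅a.1⁻¹, b.1⁻¹⁆ := by
    rw [eb, commutatorElement_def, commutatorElement_def, inv_inv, mul_assoc _ (_ * w),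
      mul_assoc _ w, ← (h2 _ ha.1).eq]
    group
  have h6 := (h3 _ (K.mul_mem hb.1 ha.1)).eq
  rw [h4, h5, commutatorElement_def, commutatorElement_def] at *
  calc _ = (b.1 * a.1)⁻¹ * (b.1 * a.1 * (a.1 * b.1 * a.1⁻¹ * b.1⁻¹)) := by group
    _ = _ := by rw [h6]; group

variable [Finite X]

theorem exists_tau {G S K C : Subgroup X} (hSK : S ≤ normalizer (K : Set X))
    (hGK : G ≤ normalizer (K : Set X)) (hcop : (Nat.card S).Coprime (Nat.card K))
    (hs : Group.IsSolvable K) (hodd : Odd (Nat.card K)) (hC : C = G ⊓ centralizer (S : Set X))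
    (hKC : K ⊔ C = G) (hZK : ⁅K, K⁆ ≤ centralizer (K : Set X))
    (hZS : ⁅K, K⁆ ≤ centralizer (S : Set X)) :
    ∃ τ : MulAut G, (∀ g, τ (τ g) = g) ∧ (∀ g, τ g = g ↔ (g : X) ∈ C) ∧
      (∀ g : G, (g : X)⁻¹ * τ g ∈ K) ∧
      ∀ s ∈ S, ∀ g g' : G, (g' : X) = s * g * s⁻¹ → (τ g' : X) = s * τ g * s⁻¹ := by
  let Δ := (MonoidHom.id X).prod (MonoidHom.id X)
  have hKG : K ≤ G := hKC ▸ le_sup_left
  have hCG : C ≤ G := hKC ▸ le_sup_right
  have hCS : C ≤ centralizer (S : Set X) := hC ▸ inf_le_right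
  have hSE := le_normalizer_antiPairs hSK
  have hCE := le_normalizer_antiPairs (hCG.trans hGK)
  have hWE : ⁅antiPairs K, S.map Δ⁆ ≤ antiPairs K := commutator_le_of_le_normalizer hSE
  have hCS' : C.map Δ ≤ centralizer (S.map Δ : Set (X × X)) := by
    rintro _ ⟨c, hc, rfl⟩ _ ⟨s, hs, rfl⟩
    rw [← map_mul, hCS hc s hs, map_mul]
  have hCW : C.map Δ ≤ normalizer ((⁅antiPairs K, S.map Δ⁆ : Subgroup _) : Set (X × X)) :=
    le_normalizer_commutator hCE (hCS'.trans (centralizer_le_normalizer _))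
  obtain ⟨P, hP⟩ : ∃ P, P = C.map Δ ⊔ ⁅antiPairs K, S.map Δ⁆ := ⟨_, rfl⟩
  have hmem : ∀ x ∈ P, ∃ c ∈ C, ∃ w ∈ ⁅antiPairs K, S.map Δ⁆, (c, c) * w = x := fun x hx => by
    obtain ⟨_, ⟨c, hc, rfl⟩, w, hw, e⟩ := (mem_sup_iff_of_le_normalizer' hCW).mp (hP ▸ hx)
    exact ⟨c, hc, w, hw, e⟩
  have hkey : ∀ w ∈ ⁅antiPairs K, S.map Δ⁆, w.1 ∈ C → w.1 = w.2 := fun w hw h => by
    refine commutator_antiPairs hZK (centralizer_inf_commutator_le hSE ?_ ⟨?_, hw⟩)
    · refine Nat.Coprime.coprime_dvd_left (card_map_dvd _ _) (Nat.Coprime.coprime_dvd_right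
        (card_dvd_of_le (show antiPairs K ≤ K.prod K from fun x hx => ⟨hx.1, hx.2.1⟩)) ?_)
      rw [Nat.card_congr (K.prodEquiv K).toEquiv, Nat.card_prod]
      exact hcop.mul_right hcop
    · rintro _ ⟨s, hs, rfl⟩
      have h1 := mul_mem (inv_mem (hCS h)) (hZS (hWE hw).2.2)
      rw [inv_mul_cancel_left] at h1
      exact Prod.ext (hCS h s hs) (h1 s hs)
  have huniq : ∀ g a b, (g, a) ∈ P → (g, b) ∈ P → a = b := fun g a b ha hb => by
    obtain ⟨c, hc, w, hw, e⟩ := hmem _ (mul_mem (inv_mem ha) hb)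
    have h1 : c * w.1 = g⁻¹ * g := congrArg Prod.fst e
    have h2 : c * w.2 = a⁻¹ * b := congrArg Prod.snd e
    rw [inv_mul_cancel] at h1
    rw [← hkey w hw (eq_inv_of_mul_eq_one_right h1 ▸ C.inv_mem hc), h1] at h2
    exact inv_mul_eq_one.mp h2.symm
  have hswap : ∀ a b, (a, b) ∈ P → (b, a) ∈ P := fun a b h => by
    have h1 : P.map (MulEquiv.prodComm : X × X ≃* X × X).toMonoidHom ≤ P := by
      rw [hP, Subgroup.map_sup, map_commutator]
      refine sup_le_sup ?_ (commutator_mono ?_ ?_)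
      · rintro _ ⟨_, ⟨c, hc, rfl⟩, rfl⟩; exact ⟨c, hc, rfl⟩
      · rintro _ ⟨x, hx, rfl⟩
        have h1 := conj_mem_of_le_normalizer' (le_normalizer_commutator le_normalizer le_normalizer)
          hx.1 hx.2.2
        exact ⟨hx.2.1, hx.1, by simpa [mul_assoc] using h1⟩
      · rintro _ ⟨_, ⟨c, hc, rfl⟩, rfl⟩; exact ⟨c, hc, rfl⟩
    exact h1 ⟨_, h, rfl⟩
  have hK : ∀ a b, (a, b) ∈ P → a ∈ G ∧ a⁻¹ * b ∈ K := fun a b h => by
    obtain ⟨c, hc, w, hw, e⟩ := hmem _ h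
    obtain ⟨rfl, rfl⟩ : c * w.1 = a ∧ c * w.2 = b := ⟨congrArg Prod.fst e, congrArg Prod.snd e⟩
    refine ⟨G.mul_mem (hCG hc) (hKG (hWE hw).1), ?_⟩
    simpa [mul_assoc] using K.mul_mem (K.inv_mem (hWE hw).1) (hWE hw).2.1
  have hex : ∀ g : G, ∃ g' : G, ((g : X), (g' : X)) ∈ P := fun g => by
    have h1 : C ≤ P.map (MonoidHom.fst X X) := fun c hc =>
      ⟨(c, c), hP ▸ mem_sup_left ⟨c, hc, rfl⟩, rfl⟩
    have h2 : G ≤ P.map (MonoidHom.fst X X) := by
      rw [← hKC, ← commutator_sup_centralizer hSK hcop (Or.inr hs)]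
      refine sup_le (sup_le (commutator_le.mpr fun k hk s hs => ⟨⁅(k, k⁻¹), (s, s)⁆, hP ▸
        mem_sup_right (commutator_mem_commutator ⟨hk, K.inv_mem hk, by simp⟩ ⟨s, hs, rfl⟩), rfl⟩)
        (le_trans ?_ h1)) h1
      exact hC ▸ inf_le_inf_right _ hKG
    obtain ⟨⟨a, b⟩, h, e⟩ := h2 g.2
    obtain rfl : a = g := e
    exact ⟨⟨b, (hK _ _ (hswap _ _ h)).1⟩, h⟩
  choose t ht using hex
  have htt : ∀ g, t (t g) = g := fun g => Subtype.ext (huniq _ _ _ (ht _) (hswap _ _ (ht g)))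
  refine ⟨⟨⟨t, t, htt, htt⟩, fun a b => Subtype.ext (huniq _ _ _ (ht _) (mul_mem (ht a) (ht b)))⟩,
    htt, fun g => ⟨fun h => ?_, fun h => Subtype.ext
      (huniq _ _ _ (ht g) (hP ▸ mem_sup_left ⟨g, h, rfl⟩))⟩, fun g => (hK _ _ (ht g)).2,
    fun s hs g g' e => huniq _ _ _ (ht g') ?_⟩
  · obtain ⟨c, hc, w, hw, e⟩ := hmem _ (ht g)
    have h1 : c * w.1 = g := congrArg Prod.fst e
    have h2 : c * w.2 = t g := congrArg Prod.snd e
    have h3 : w.1 = w.2 := mul_left_cancel (h1.trans ((congrArg Subtype.val h).symm.trans h2.symm))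
    have h4 : w.1 ∈ centralizer (S : Set X) := mem_of_pow_coprime (Nat.coprime_two_left.mpr hodd)
      (by rw [pow_two]; nth_rewrite 2 [h3]; exact hZS (hWE hw).2.2)
      (by rw [show w.1 ^ Nat.card K = 1 from
        congrArg Subtype.val (pow_card_eq_one' (x := (⟨_, (hWE hw).1⟩ : K)))]; exact one_mem _)
    exact h1 ▸ C.mul_mem hc (hC ▸ ⟨hKG (hWE hw).1, h4⟩)
  · have h1 : S.map Δ ≤ normalizer (P : Set (X × X)) := hP ▸ le_normalizer_sup
      ((le_centralizer_iff.mp hCS').trans (centralizer_le_normalizer _))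
      (le_normalizer_commutator hSE le_normalizer)
    rw [e]
    exact conj_mem_of_le_normalizer h1 ⟨s, hs, rfl⟩ (ht g)

omit [Finite X] in
theorem exists_res_aut {G K H : Subgroup X} (hKH : K ≤ H) (hHG : H ≤ G) (τ : MulAut G)
    (h1 : ∀ g, τ (τ g) = g) (h2 : ∀ g : G, (g : X)⁻¹ * τ g ∈ K) :
    ∃ σ : MulAut H, ∀ h, inclusion hHG (σ h) = τ (inclusion hHG h) := by
  let t : H → H := fun h => ⟨τ (inclusion hHG h), by
    have h3 := H.mul_mem h.2 (hKH (h2 (inclusion hHG h)))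
    rwa [coe_inclusion, mul_inv_cancel_left] at h3⟩
  have ht : ∀ h, inclusion hHG (t h) = τ (inclusion hHG h) := fun _ => rfl
  have htt : ∀ h, t (t h) = h := fun h => inclusion_injective hHG (by rw [ht, ht, h1])
  exact ⟨⟨⟨t, t, htt, htt⟩, fun a b => inclusion_injective hHG
    (by simp only [ht, map_mul])⟩, ht⟩

theorem exists_inv_under_coprime {G S L : Subgroup X} (hSG : S ≤ normalizer (G : Set X))
    (hSL : S ≤ normalizer (L : Set X)) (hLG : L ≤ G) (hGL : G ≤ normalizer (L : Set X))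
    (hcop : (Nat.card S).Coprime (Nat.card G)) (hs : Group.IsSolvable G) {χ : G → ℂ}
    (hχ : IsIrrCharacter G χ) (hi : S ≤ stab G χ) :
    ∃ θ, IsIrrCharacter L θ ∧ S ≤ stab L θ ∧ Over (inclusion hLG) χ θ := by
  have := Fintype.ofFinite X
  have := Fintype.ofFinite G
  have := Fintype.ofFinite L
  have := normal_subgroupOf_of_le_normalizer hGL
  obtain ⟨θ, h1, h2⟩ := Cfsg.Agent.S4447.result G S L
    (fun s hs g hg => conj_mem_of_le_normalizer hSG hs hg) hLG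
    (fun s hs g hg => conj_mem_of_le_normalizer hSL hs hg)
    (hcop.symm.coprime_dvd_left (relIndex_dvd_card L G)) (Or.inr inferInstance) ⟨χ, hχ⟩
    (fun s hs => (hi hs).2)
  exact ⟨θ, θ.2, fun s hs => ⟨hSL hs, h2 s hs⟩, over_iff.mpr h1⟩

/-- An invariant character of `K` is fixed by an automorphism that commutes with `S` and fixes the
fixed points of `S`. -/
theorem comp_eq_of_inv {S K : Subgroup X} (hcop : (Nat.card S).Coprime (Nat.card K))
    (hs : Group.IsSolvable K) (hZS : ⁅K, K⁆ ≤ centralizer (S : Set X)) (σ : MulAut K)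
    (h1 : ∀ k : K, (k : X) ∈ centralizer (S : Set X) → σ k = k)
    (h2 : ∀ s ∈ S, ∀ g g' : K, (g' : X) = s * g * s⁻¹ → (σ g' : X) = s * σ g * s⁻¹) {θ : K → ℂ}
    (hθ : IsIrrCharacter K θ) (hi : S ≤ stab K θ) (k : K) : θ (σ k) = θ k := by
  have := Fintype.ofFinite S
  have hSK := hi.trans (stab_le K θ)
  have hDK : K ⊓ centralizer (S : Set X) ≤ K := inf_le_left
  obtain ⟨ψ, hψ, ho⟩ := exists_under (inclusion hDK) hθ
  obtain ⟨l, hl, hlθ⟩ := exists_linear_of_over hDK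
    (le_inf (commutator_le_of_le_normalizer le_normalizer) hZS) hψ hθ (isIrr_comp_mulEquiv σ hθ) ho
    ((over_congr (κ := inclusion hDK) (κ' := inclusion hDK) (χ := θ) (χ' := fun h => θ (σ h))
      (Equiv.refl _) (fun m => congrArg θ (h1 (inclusion hDK m) m.2.2)) (fun _ => rfl)).mpr ho)
  by_cases h0 : θ k = 0
  · rw [hlθ, h0, mul_zero]
  let m : K →* ℂˣ := ∏ s : S, l.comp (cE K (hSK s.2)).toMonoidHom
  have hm : ∀ x, m x = ∏ s : S, l (cE K (hSK s.2) x) := fun x => MonoidHom.finsetProd_apply _ _ _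
  have hm1 : K ≤ m.ker.map K.subtype := by
    nth_rewrite 1 [← commutator_sup_centralizer hSK hcop (Or.inr hs)]
    refine sup_le (commutator_le.mpr fun x hx a ha => ⟨⟨x, hx⟩ * (cE K (hSK ha) ⟨x, hx⟩)⁻¹, ?_, ?_⟩)
      fun x hx => ⟨⟨x, hx.1⟩, ?_, rfl⟩
    · rw [SetLike.mem_coe, MonoidHom.mem_ker, map_mul, map_inv, mul_inv_eq_one, hm, hm]
      exact (Fintype.prod_equiv (Equiv.mulRight (⟨a, ha⟩ : S)) _ _ fun s =>
        congrArg l (Subtype.ext (by simp [cE_coe, mul_assoc]))).symm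
    · change x * (a * x * a⁻¹)⁻¹ = _
      rw [commutatorElement_def]
      group
    · rw [SetLike.mem_coe, MonoidHom.mem_ker, hm]
      refine Finset.prod_eq_one fun s _ => hl _ ⟨Subtype.property _, ?_⟩
      rw [cE_coe, show (s : X) * x = x * s from hx.2 s s.2, mul_inv_cancel_right]
      exact hx.2
  obtain ⟨k', h3, h4⟩ := hm1 k.2
  rw [show k' = k from Subtype.ext h4, SetLike.mem_coe, MonoidHom.mem_ker, hm,
    Finset.prod_congr rfl (g := fun _ => l k) fun s _ => Units.ext (mul_right_cancel₀ h0 (by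
      have h5 := (hi s.2).2 k (cE K (hSK s.2) k) rfl
      rw [← hlθ, ← h5, ← hlθ]
      exact (hi s.2).2 _ _ (h2 s s.2 k _ rfl))),
    Finset.prod_const, Finset.card_univ, ← Nat.card_eq_fintype_card] at h3
  have h5 : l k ^ Nat.card K = 1 := by rw [← map_pow, pow_card_eq_one', map_one]
  have h6 := pow_gcd_eq_one.mpr ⟨h3, h5⟩
  rw [hcop, pow_one] at h6
  rw [hlθ, h6, Units.val_one, one_mul]

/-- An involutory automorphism of a group of odd order that acts trivially on `G/K` and fixes the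
constituents on `K` fixes the character. -/
theorem comp_eq_of_under {G K : Subgroup X} (hKG : K ≤ G) (hGK : G ≤ normalizer (K : Set X))
    (hodd : Odd (Nat.card G)) (τ : MulAut G) (h1 : ∀ g, τ (τ g) = g)
    (h2 : ∀ g : G, (g : X)⁻¹ * τ g ∈ K) {χ : G → ℂ} (hχ : IsCharacter G χ)
    (h : ∀ θ, IsIrrCharacter K θ → Over (inclusion hKG) χ θ →
      ∀ k k' : K, inclusion hKG k' = τ (inclusion hKG k) → θ k' = θ k) (g : G) :
    χ (τ g) = χ g := by
  obtain ⟨H, hH⟩ : ∃ H, H = K ⊔ zpowers (g : X) := ⟨_, rfl⟩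
  have hHG : H ≤ G := hH ▸ sup_le hKG (zpowers_le_of_mem g.2)
  have hKH : K ≤ H := hH ▸ le_sup_left
  have hHH : ⁅H, H⁆ ≤ K := hH ▸ commutator_sup_le ((zpowers_le_of_mem g.2).trans hGK)
    ((commutator_eq_bot_iff_le_centralizer.mpr (le_centralizer (zpowers (g : X)))).le.trans bot_le)
  obtain ⟨σ, hσ⟩ := exists_res_aut hKH hHG τ h1 h2
  obtain ⟨ρ, hρ⟩ := exists_res_aut le_rfl hKG τ h1 h2
  have := Fintype.ofFinite H
  obtain ⟨x, hx⟩ : ∃ x, g = inclusion hHG x := ⟨⟨g, hH ▸ mem_sup_right (mem_zpowers _)⟩, rfl⟩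
  clear hH
  subst hx
  rw [← hσ, res_eq_sum_mult _ hχ, res_eq_sum_mult _ hχ x]
  refine Finset.sum_congr rfl fun ξ _ => ?_
  by_cases h0 : mult (inclusion hHG) χ ξ = 0
  · simp [h0]
  congr 1
  obtain ⟨θ, hθ, ho⟩ := exists_under (inclusion hKH) ξ.2
  have h3 := h θ hθ (Over.trans (fun _ => rfl) hχ ξ.2 (isCharacter_of_isIrr hθ)
    ((over_iff_mult hχ (irr_isCharacter ξ)).mpr h0) ho)
  obtain ⟨l, hl, hlξ⟩ := exists_linear_of_over hKH hHH hθ ξ.2
    (isIrr_comp_mulEquiv σ ξ.2) ho ((over_congr (κ := inclusion hKH) (κ' := inclusion hKH)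
      (χ := fun h => (ξ : H → ℂ) (σ h)) (χ' := ξ) ρ.toEquiv (fun m => congrArg (ξ : _ → ℂ)
      (inclusion_injective hHG ((hρ m).trans (hσ (inclusion hKH m)).symm)))
      (fun m => h3 m _ (hρ m))).mp ho)
  by_cases h4 : (ξ : _ → ℂ) x = 0
  · rw [hlξ, h4, mul_zero]
  have h5 : l (σ x) = l x := by
    have h6 := hl (x⁻¹ * σ x) (by
      have h7 := h2 (inclusion hHG x)
      rwa [← hσ] at h7)
    rw [map_mul, map_inv, inv_mul_eq_one] at h6
    exact h6.symm
  have h6 := hlξ (σ x)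
  rw [show σ (σ x) = x from inclusion_injective hHG (by rw [hσ, hσ, h1]), hlξ x, h5, ← mul_assoc,
    eq_comm, mul_eq_right₀ h4, ← Units.val_mul, Units.val_eq_one, ← pow_two] at h6
  have h7 : l x ^ Nat.card G = 1 := by
    rw [← map_pow, show x ^ Nat.card G = 1 from inclusion_injective hHG
      (by rw [map_pow, pow_card_eq_one', map_one]), map_one]
  have h8 := pow_gcd_eq_one.mpr ⟨h6, h7⟩
  rw [Nat.coprime_two_left.mpr hodd, pow_one] at h8
  rw [hlξ, h8, Units.val_one, one_mul]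

/-- The Isaacs correspondence when `K` has class two with derived subgroup centralized by `S`. -/
theorem isaacs_central {G S K C : Subgroup X} [Fintype C] (hSG : S ≤ normalizer (G : Set X))
    (hSK : S ≤ normalizer (K : Set X)) (hGK : G ≤ normalizer (K : Set X))
    (hcop : (Nat.card S).Coprime (Nat.card G)) (hs : Group.IsSolvable G) (hodd : Odd (Nat.card G))
    (hC : C = G ⊓ centralizer (S : Set X)) (hCG : C ≤ G) (hKC : K ⊔ C = G)
    (hZK : ⁅K, K⁆ ≤ centralizer (K : Set X)) (hZS : ⁅K, K⁆ ≤ centralizer (S : Set X)) :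
    ∃ e : {χ : IrrCharacter G // S ≤ stab G χ} ≃ IrrCharacter C, ∀ χ β,
      β = e χ ↔ ¬ 2 ∣ mult (inclusion hCG) χ.1 β := by
  have : Fact (Nat.Prime 2) := ⟨Nat.prime_two⟩
  have := Fintype.ofFinite G
  have hKG : K ≤ G := hKC ▸ le_sup_left
  have hCS : C ≤ centralizer (S : Set X) := hC ▸ inf_le_right
  have hcK := coprime_of_le hcop le_rfl hKG
  have hsK := isSolvable_of_le hs hKG
  obtain ⟨τ, h1, h2, h3, h4⟩ := exists_tau hSK hGK hcK hsK (hodd.of_dvd_nat (card_dvd_of_le hKG))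
    hC hKC hZK hZS
  have hτ : τ ^ 2 = 1 := MulEquiv.ext h1
  have hz : ∀ {P : MulAut G → Prop}, P 1 → P τ → ∀ a : zpowers τ, P a := fun {P} p1 p2 a => by
    obtain ⟨n, hn⟩ := (mem_powers_iff_mem_zpowers.mpr a.2)
    change τ ^ n = _ at hn
    rw [← hn, pow_eq_pow_mod n hτ]
    rcases Nat.mod_two_eq_zero_or_one n with h | h <;> simpa [h]
  obtain ⟨e, he⟩ := glauberman_pgroup (p := 2) (A := zpowers τ)
    (fun a => ⟨1, Subtype.ext (hz (P := fun a => a ^ 2 ^ 1 = 1) (one_pow _) hτ a)⟩)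
    (zpowers τ).subtype hodd.not_two_dvd_nat (inclusion hCG) (inclusion_injective hCG)
    (fun g => ⟨fun ⟨c, hc⟩ => hz (P := fun a => a g = g) rfl ((h2 g).mpr (hc ▸ c.2)),
      fun h => ⟨⟨g, (h2 g).mp (h ⟨τ, mem_zpowers τ⟩)⟩, rfl⟩⟩)
  have hinv : ∀ {χ : G → ℂ}, (∀ g, χ (τ g) = χ g) → Inv (zpowers τ).subtype χ := fun {χ} h =>
    hz (P := fun a => ∀ g, χ (a g) = χ g) (fun _ => rfl) h
  let e' : {χ : IrrCharacter G // S ≤ stab G χ} ≃ InvIrr (zpowers τ).subtype :=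
    Equiv.subtypeEquivRight fun χ => ⟨fun h => hinv (comp_eq_of_under hKG hGK hodd τ h1 h3
      (irr_isCharacter χ) fun θ hθ ho k k' e => by
        obtain ⟨ρ, hρ⟩ := exists_res_aut le_rfl hKG τ h1 h3
        obtain ⟨θ₀, hθ₀, h5, h6⟩ := exists_inv_under_coprime hSG hSK hKG hGK hcop hs χ.2 h
        obtain ⟨g, hg, rfl⟩ := exists_cA_eq hKG hGK χ.2 hθ₀ hθ h6 ho
        obtain ⟨x, hx, c, hc, rfl⟩ := (mem_sup_iff_of_le_normalizer (hCG.trans hGK)).mp (hKC.ge hg)
        rw [show k' = ρ k from inclusion_injective hKG (e.trans (hρ k).symm)]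
        refine comp_eq_of_inv hcK hsK hZS ρ (fun k hk => inclusion_injective hKG ((hρ k).trans
          ((h2 _).mpr (hC ▸ ⟨hKG k.2, hk⟩)))) (fun s hs g g' e => ?_) hθ (fun s hs => ?_) k
        · have h7 := h4 s hs (inclusion hKG g) (inclusion hKG g') e
          rwa [← hρ, ← hρ] at h7
        · refine mem_stab_cA _ ?_
          rw [mul_assoc x, ← hCS hc s hs, mul_inv_rev, ← mul_assoc, mul_assoc x,
            mul_inv_cancel_right]
          have h7 := le_stab (isClassFunction_of_isIrr hθ₀) hx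
          exact mul_mem (mul_mem h7 (h5 hs)) (inv_mem h7)),
      fun h s hs => (cA_eq_self_iff (hSG hs)).mp (by
        have h5 : Inv (zpowers τ).subtype (cA G (hSG hs) χ) := hinv fun g =>
          (congrArg (χ : G → ℂ) (Subtype.ext (h4 s hs g (cE G (hSG hs) g) rfl).symm)).trans
            (h ⟨τ, mem_zpowers τ⟩ _)
        have h6 := ((he ⟨⟨_, isIrr_cA (hSG hs) χ.2⟩, h5⟩ (e ⟨χ, h⟩)).2).mpr (by
          have h7 := ((he ⟨χ, h⟩ (e ⟨χ, h⟩)).2).mp rfl
          have h8 := le_centralizer_iff.mp hCS hs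
          rwa [← mult_cA_cA hCG (centralizer_le_normalizer _ h8) (hSG hs),
            (cA_eq_self_iff _).mpr (centralizer_le_stab _ _ h8)] at h7)
        exact (congrArg (fun z => (z.1 : G → ℂ)) (e.injective h6)).symm)⟩
  exact ⟨e'.trans e, fun χ β => (he (e' χ) β).2⟩

end CfsgLib.McKay
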