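import Mathlib
import Cfsg.Agent.Lib.McKay.Tau

/-! The Isaacs correspondence over an abelian section for groups of odd order. -/

set_option autoImplicit false

namespace CfsgLib.McKay

open Cfsg CfsgLib.Char CfsgLib.CharDeep CfsgLib.ChDeg CfsgLib.Glaub CfsgLib.Coprime Subgroup
open scoped ComplexConjugate Pointwise commutatorElement

/-- The relation `r` is a bijection between `A` and `B`. -/
def RelBij {α β : Type*} (A : α → Prop) (B : β → Prop) (r : α → β → Prop) : Prop :=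
  (∀ a, A a → ∃! b, B b ∧ r a b) ∧ ∀ b, B b → ∃! a, A a ∧ r a b

/-- The relation `R` is total in both directions and injective. -/
def Corr {α α' : Type*} (A : α → Prop) (A' : α' → Prop) (R : α → α' → Prop) : Prop :=
  (∀ a, A a → ∃ a', A' a' ∧ R a a') ∧ (∀ a', A' a' → ∃ a, A a ∧ R a a') ∧
    ∀ a₁ a₂ a', A a₁ → A a₂ → A' a' → R a₁ a' → R a₂ a' → a₁ = a₂

theorem RelBij.transfer {α β α' β' : Type*} {A : α → Prop} {B : β → Prop} {r : α → β → Prop}
    {A' : α' → Prop} {B' : β' → Prop} {r' : α' → β' → Prop} {RA : α → α' → Prop}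
    {RB : β → β' → Prop} (h : RelBij A' B' r') (hA : Corr A A' RA) (hB : Corr B B' RB)
    (hr : ∀ a a' b b', A a → A' a' → B b → B' b' → RA a a' → RB b b' → (r a b ↔ r' a' b')) :
    RelBij A B r := by
  refine ⟨fun a ha => ?_, fun b hb => ?_⟩
  · obtain ⟨a', ha', h1⟩ := hA.1 a ha
    obtain ⟨b', ⟨hb', h2⟩, h3⟩ := h.1 a' ha'
    obtain ⟨b, hb, h4⟩ := hB.2.1 b' hb'
    refine ⟨b, ⟨hb, (hr _ _ _ _ ha ha' hb hb' h1 h4).mpr h2⟩, fun c hc => ?_⟩
    obtain ⟨c', hc', h5⟩ := hB.1 c hc.1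
    obtain rfl := h3 c' ⟨hc', (hr _ _ _ _ ha ha' hc.1 hc' h1 h5).mp hc.2⟩
    exact hB.2.2 _ _ _ hc.1 hb hc' h5 h4
  · obtain ⟨b', hb', h1⟩ := hB.1 b hb
    obtain ⟨a', ⟨ha', h2⟩, h3⟩ := h.2 b' hb'
    obtain ⟨a, ha, h4⟩ := hA.2.1 a' ha'
    refine ⟨a, ⟨ha, (hr _ _ _ _ ha ha' hb hb' h4 h1).mpr h2⟩, fun c hc => ?_⟩
    obtain ⟨c', hc', h5⟩ := hA.1 c hc.1
    obtain rfl := h3 c' ⟨hc', (hr _ _ _ _ hc.1 hc' hb hb' h5 h1).mp hc.2⟩
    exact hA.2.2 _ _ _ hc.1 ha hc' h5 h4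

universe u

section clifford

variable {X : Type*} [Group X] [Finite X] {L T Y : Subgroup X} (hLT : L ≤ T) (hTY : T ≤ Y)
  (hY : Y ≤ normalizer (L : Set X)) {φ : L → ℂ} (hφ : IsIrrCharacter L φ) (hT : T = Y ⊓ stab L φ)

include hY hφ hT

theorem cliffA_key [Fintype Y] {η : T → ℂ} (hη : IsIrrCharacter T η)
    (h1 : Over (inclusion hLT) η φ) {χ : Y → ℂ} (hχ : IsIrrCharacter Y χ)
    (h2 : Over (inclusion hTY) χ η) :
    indFun (T.subgroupOf Y) (fun x => η (subgroupOfEquivOfLe hTY x)) = χ := by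
  have := normal_subgroupOf_of_le_normalizer hY
  have := Fintype.ofFinite (L.subgroupOf Y)
  have := Fintype.ofFinite (T.subgroupOf Y)
  have h3 : L.subgroupOf Y ≤ T.subgroupOf Y := fun x hx => hLT hx
  have h4 : Over (inclusion h3) (fun x => η (subgroupOfEquivOfLe hTY x))
      (fun x => φ (subgroupOfEquivOfLe (hLT.trans hTY) x)) :=
    (over_congr (subgroupOfEquivOfLe (hLT.trans hTY)).toEquiv (fun _ => rfl) (fun _ => rfl)).mp h1
  exact (clifford_corr_key (L.subgroupOf Y) (T.subgroupOf Y) h3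
    (isIrr_comp_mulEquiv (subgroupOfEquivOfLe (hLT.trans hTY)) hφ)
    (by rw [← inertia_subgroupOf (hLT.trans hTY) hY, hT, inf_subgroupOf_left])
    (isIrr_comp_mulEquiv (subgroupOfEquivOfLe hTY) hη) (over_iff.mp h4 :) hχ
    (over_iff.mp ((over_subgroupOf hTY).mpr h2) :)).1

theorem cliffA_inj {η : T → ℂ} (hη : IsIrrCharacter T η) (h1 : Over (inclusion hLT) η φ)
    {χ χ' : Y → ℂ} (hχ : IsIrrCharacter Y χ) (hχ' : IsIrrCharacter Y χ')
    (h2 : Over (inclusion hTY) χ η) (h2' : Over (inclusion hTY) χ' η) : χ = χ' := by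
  have := Fintype.ofFinite Y
  exact (cliffA_key hLT hTY hY hφ hT hη h1 hχ h2).symm.trans
    (cliffA_key hLT hTY hY hφ hT hη h1 hχ' h2')

theorem cliffA_mult [Fintype T] {η : T → ℂ} (hη : IsIrrCharacter T η)
    (h1 : Over (inclusion hLT) η φ) {χ : Y → ℂ} (hχ : IsIrrCharacter Y χ)
    (h2 : Over (inclusion hTY) χ η) : mult (inclusion hTY) χ η = 1 := by
  have := Fintype.ofFinite Y
  have := Fintype.ofFinite (T.subgroupOf Y)
  have h3 := classInner_indFun_right (T.subgroupOf Y) (fun x => η (subgroupOfEquivOfLe hTY x))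
    (isClassFunction_of_isIrr hχ)
  rw [cliffA_key hLT hTY hY hφ hT hη h1 hχ h2, classInner_irr_self hχ] at h3
  refine mult_eq_of_eq _ ?_
  rw [Nat.cast_one, h3, ← classInner_comp_of_surjective (subgroupOfEquivOfLe hTY).toMonoidHom
    (subgroupOfEquivOfLe hTY).surjective]
  rfl

theorem cliffA_unique {η η' : T → ℂ} (hη : IsIrrCharacter T η) (hη' : IsIrrCharacter T η')
    (h1 : Over (inclusion hLT) η φ) (h1' : Over (inclusion hLT) η' φ) {χ : Y → ℂ}
    (hχ : IsIrrCharacter Y χ) (h2 : Over (inclusion hTY) χ η) (h2' : Over (inclusion hTY) χ η') :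
    η = η' := by
  have := Fintype.ofFinite Y
  have := normal_subgroupOf_of_le_normalizer hY
  have := Fintype.ofFinite (L.subgroupOf Y)
  have := Fintype.ofFinite (T.subgroupOf Y)
  have h3 : L.subgroupOf Y ≤ T.subgroupOf Y := fun x hx => hLT hx
  have h4 : ∀ {η : T → ℂ}, Over (inclusion hLT) η φ → Over (inclusion h3)
      (fun x => η (subgroupOfEquivOfLe hTY x))
      (fun x => φ (subgroupOfEquivOfLe (hLT.trans hTY) x)) := fun h1 =>
    (over_congr (subgroupOfEquivOfLe (hLT.trans hTY)).toEquiv (fun _ => rfl) (fun _ => rfl)).mp h1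
  have h5 := clifford_corr_inj (L.subgroupOf Y) (T.subgroupOf Y) h3
    (isIrr_comp_mulEquiv (subgroupOfEquivOfLe (hLT.trans hTY)) hφ)
    (by rw [← inertia_subgroupOf (hLT.trans hTY) hY, hT, inf_subgroupOf_left])
    (isIrr_comp_mulEquiv (subgroupOfEquivOfLe hTY) hη)
    (isIrr_comp_mulEquiv (subgroupOfEquivOfLe hTY) hη') (over_iff.mp (h4 h1) :)
    (over_iff.mp (h4 h1') :) ((cliffA_key hLT hTY hY hφ hT hη h1 hχ h2).trans
      (cliffA_key hLT hTY hY hφ hT hη' h1' hχ h2').symm)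
  funext t
  obtain ⟨x, rfl⟩ := (subgroupOfEquivOfLe hTY).surjective t
  exact congrFun h5 x

theorem cliffA_corr {S : Subgroup X} (hSY : S ≤ normalizer (Y : Set X)) (hSφ : S ≤ stab L φ) :
    Corr (fun χ : Y → ℂ => IsIrrCharacter Y χ ∧ S ≤ stab Y χ ∧
        Over (inclusion (hLT.trans hTY)) χ φ)
      (fun η : T → ℂ => IsIrrCharacter T η ∧ S ≤ stab T η ∧ Over (inclusion hLT) η φ)
      (fun χ η => Over (inclusion hTY) χ η) := by
  have hST : S ≤ normalizer (T : Set X) :=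
    hT ▸ Coprime.le_normalizer_inf hSY (hSφ.trans le_normalizer)
  have h0 : ∀ {η : T → ℂ} {s : X} (hs : s ∈ S), Over (inclusion hLT) η φ →
      Over (inclusion hLT) (cA T (hST hs) η) φ := fun hs h => by
    have h1 := (over_cA_cA hLT (hSφ hs).1 (hST hs)).mpr h
    rwa [(cA_eq_self_iff _).mpr (hSφ hs)] at h1
  refine ⟨fun χ hχ => ?_, fun η hη => ?_, fun χ χ' η hχ hχ' hη =>
    cliffA_inj hLT hTY hY hφ hT hη.1 hη.2.2 hχ.1 hχ'.1⟩
  · obtain ⟨η, hη, h1, h2⟩ := Over.exists_between (inclusion hTY) (inclusion hLT) (fun _ => rfl)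
      (isCharacter_of_isIrr hχ.1) (isCharacter_of_isIrr hφ) hχ.2.2
    refine ⟨η, ⟨hη, fun s hs => (cA_eq_self_iff (hST hs)).mp (cliffA_unique hLT hTY hY hφ hT
      (isIrr_cA _ hη) hη (h0 hs h2) h2 hχ.1 ?_ h1), h2⟩, h1⟩
    have h3 := (over_cA_cA hTY (hST hs) (hSY hs)).mpr h1
    rwa [(cA_eq_self_iff _).mpr (hχ.2.1 hs)] at h3
  · obtain ⟨χ, hχ, h1⟩ := exists_over hTY hη.1
    refine ⟨χ, ⟨hχ, fun s hs => (cA_eq_self_iff (hSY hs)).mp (cliffA_inj hLT hTY hY hφ hT hη.1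
      hη.2.2 (isIrr_cA _ hχ) hχ ?_ h1), Over.trans (fun _ => rfl) (isCharacter_of_isIrr hχ) hη.1
      (isCharacter_of_isIrr hφ) h1 hη.2.2⟩, h1⟩
    have h3 := (over_cA_cA hTY (hST hs) (hSY hs)).mpr h1
    rwa [(cA_eq_self_iff _).mpr (hη.2.1 hs)] at h3

theorem cliffA_mult_eq {H U : Subgroup X} [Fintype H] [Fintype U] (hLU : L ≤ U) (hUH : U ≤ H)
    (hHY : H ≤ Y) (hUT : U ≤ T) (hU : U = H ⊓ stab L φ) {χ : Y → ℂ} (hχ : IsIrrCharacter Y χ)
    {η : T → ℂ} (hη : IsIrrCharacter T η) (h1 : Over (inclusion hLT) η φ)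
    (h2 : Over (inclusion hTY) χ η) {ψ : H → ℂ} (hψ : IsIrrCharacter H ψ) {ζ : U → ℂ}
    (hζ : IsIrrCharacter U ζ) (h3 : Over (inclusion hLU) ζ φ) (h4 : Over (inclusion hUH) ψ ζ) :
    mult (inclusion hHY) χ ψ = mult (inclusion hUT) η ζ := by
  classical
  have := Fintype.ofFinite T
  have hc := isCharacter_of_isIrr hχ
  have hcζ := isCharacter_of_isIrr hζ
  have e1 := mult_comp (inclusion hHY) (inclusion hUH) hc hcζ
  have e2 := mult_comp (inclusion hTY) (inclusion hUT) hc hcζ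
  rw [Finset.sum_eq_single ⟨ψ, hψ⟩ (fun ψ' _ hne => by
    by_contra h
    exact hne (Subtype.ext (cliffA_inj hLU hUH (hHY.trans hY) hφ hU hζ h3 ψ'.2 hψ
      ((over_iff_mult (irr_isCharacter ψ') hcζ).mpr (right_ne_zero_of_mul h)) h4))) (by simp),
    cliffA_mult hLU hUH (hHY.trans hY) hφ hU hζ h3 hψ h4, mul_one] at e1
  rw [Finset.sum_eq_single ⟨η, hη⟩ (fun η' _ hne => by
    by_contra h
    exact hne (Subtype.ext (cliffA_unique hLT hTY hY hφ hT η'.2 hη (Over.trans (fun _ => rfl)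
      (irr_isCharacter η') hζ (isCharacter_of_isIrr hφ)
      ((over_iff_mult (irr_isCharacter η') hcζ).mpr (right_ne_zero_of_mul h)) h3) h1 hχ
      ((over_iff_mult hc (irr_isCharacter η')).mpr (left_ne_zero_of_mul h)) h2))) (by simp),
    cliffA_mult hLT hTY hY hφ hT hη h1 hχ h2, one_mul] at e2
  exact e1.symm.trans e2

end clifford

section cover

variable {X : Type*} [Group X] {L H : Subgroup X} {ν : L → ℂ} {Γ : Type*} [Group Γ] [Finite Γ]
  (a : ACover L H ν Γ) {Δ : Type*} [Group Δ] {q : Γ →* Δ}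

omit [Finite Γ] in
theorem ACover.isIrr_ker (hν : IsIrrCharacter L ν) (hq : q.ker = a.R) (hLH : L ≤ H)
    {Y : Subgroup X} (hLY : L ≤ Y) : IsIrrCharacter (q.subgroupMap (Y.comap a.π)).ker
      (fun n => a.E ((n : Y.comap a.π) : Γ)) := by
  have := a.normal
  have h1 : ∀ n : (q.subgroupMap (Y.comap a.π)).ker, ((n : Y.comap a.π) : Γ) ∈ a.R := fun n =>
    hq.le (congrArg Subtype.val n.2)
  have h2 : a.R ≤ L.comap a.π := a.sup ▸ le_sup_right
  let j : (q.subgroupMap (Y.comap a.π)).ker →* L :=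
    ((a.π.comp (Y.comap a.π).subtype).comp (Subgroup.subtype _)).codRestrict L fun n => h2 (h1 n)
  have hj : Function.Surjective j := fun l => by
    obtain ⟨x, hx⟩ := a.range.ge (hLH l.2)
    have h3 : x ∈ a.π.ker ⊔ a.R := a.sup ▸ (by rw [mem_comap, hx]; exact l.2)
    obtain ⟨z, hz, r, hr, rfl⟩ := mem_sup_of_normal_right.mp h3
    rw [map_mul, show a.π z = 1 from hz, one_mul] at hx
    exact ⟨⟨⟨r, hLY (h2 hr)⟩, Subtype.ext (hq.ge hr)⟩, Subtype.ext hx⟩
  have h3 := isIrr_comp_of_surjective j hj hν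
  rwa [show (fun n => ν (j n)) = fun n : (q.subgroupMap (Y.comap a.π)).ker =>
      a.E ((n : Y.comap a.π) : Γ) from funext fun n => by
    rw [a.E_eq ⟨_, h2 (h1 n)⟩ (j n) rfl, a.μ_R _ (h1 n), Units.val_one, one_mul]] at h3

theorem ACover.corr [Finite X] (hν : IsIrrCharacter L ν) (hq : q.ker = a.R) {Y : Subgroup X}
    (hLY : L ≤ Y) (hYH : Y ≤ H) {S : Subgroup X} {S' : Subgroup Γ} (hS : S'.map a.π = S)
    (hSY : S ≤ normalizer (Y : Set X)) :
    Corr (fun χ : Y → ℂ => IsIrrCharacter Y χ ∧ S ≤ stab Y χ ∧ Over (inclusion hLY) χ ν)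
      (fun β : (Y.comap a.π).map q → ℂ => IsIrrCharacter _ β ∧ S'.map q ≤ stab _ β ∧
        ∀ (z : L.comap a.π) (y : (Y.comap a.π).map q), a.π z = 1 → q z = y → a.μ z * β y = β 1)
      (fun χ β => ∀ x, χ (a.π.subgroupComap Y x) = β (q.subgroupMap _ x) * a.E x) := by
  have hp := subgroupComap_surj a.π (hYH.trans a.range.ge)
  have hq' := q.subgroupMap_surjective (Y.comap a.π)
  have hE := isCharacter_restrict (Y.comap a.π) a.char
  have hEq := a.isIrr_ker hν hq (hLY.trans hYH) hLY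
  have hcl := isClassFunction_of_isCharacter a.char
  have hz : ∀ z : (a.π.subgroupComap Y).ker, ((z : Y.comap a.π) : Γ) ∈ L.comap a.π := fun z =>
    ker_le_comap _ _ (congrArg Subtype.val z.2)
  have h1 : a.E 1 = ν 1 := by simpa using a.E_eq 1 1 (by simp)
  have hlam : ∀ z : (a.π.subgroupComap Y).ker, a.E ((z : Y.comap a.π) : Γ) =
      a.μ ⟨_, hz z⟩ * a.E ((1 : Y.comap a.π) : Γ) := fun z => by
    rw [a.E_eq ⟨_, hz z⟩ 1 (congrArg Subtype.val z.2), coe_one, h1]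
  have hS' : S' ≤ normalizer (Y.comap a.π : Set Γ) :=
    (map_le_iff_le_comap.mp (hS.le.trans hSY)).trans (le_normalizer_comap _)
  have hS'' : S'.map q ≤ normalizer ((Y.comap a.π).map q : Set Δ) :=
    (map_mono hS').trans (le_normalizer_map _)
  have hres : ∀ {χ : Y → ℂ} {c : ℂ}, (∀ l, χ (inclusion hLY l) = c * ν l) →
      ∀ n : (q.subgroupMap (Y.comap a.π)).ker,
        χ (a.π.subgroupComap Y n) = c * a.E ((n : Y.comap a.π) : Γ) := fun {χ c} h n => by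
    have h2 : ((n : Y.comap a.π) : Γ) ∈ a.R := hq.le (congrArg Subtype.val n.2)
    have h3 : ((n : Y.comap a.π) : Γ) ∈ L.comap a.π := a.sup ▸ mem_sup_right h2
    rw [a.E_eq ⟨_, h3⟩ ⟨_, h3⟩ rfl, a.μ_R _ h2, Units.val_one, one_mul]
    exact h ⟨_, h3⟩
  have hHν : H ≤ stab L ν := fun g hg => by
    obtain ⟨x, rfl⟩ := a.range.ge hg
    have h2 := a.top_le_stab (mem_top x)
    refine ⟨?_, fun m m' e => ?_⟩
    · have h3 := le_normalizer_map a.π ⟨x, h2.1, rfl⟩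
      rwa [map_comap_eq_self ((hLY.trans hYH).trans a.range.ge)] at h3
    · obtain ⟨y, rfl⟩ := subgroupComap_surj a.π ((hLY.trans hYH).trans a.range.ge) m
      have h3 := a.E_eq (cE _ h2.1 y) m' (by rw [e, cE_coe]; simp; rfl)
      have h4 : (a.μ (cE _ h2.1 y) : ℂ) = a.μ y := h2.2 y (cE _ h2.1 y) rfl
      rw [cE_coe, hcl, a.E_eq y (a.π.subgroupComap L y) rfl, h4] at h3
      exact (mul_left_cancel₀ (Units.ne_zero _) h3).symm
  refine ⟨fun χ hχ => ?_, fun β hβ => ?_, fun χ χ' β _ _ _ h h' => funext fun y => ?_⟩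
  · have := Fintype.ofFinite (q.subgroupMap (Y.comap a.π)).ker
    obtain ⟨c, hc, h2⟩ := exists_res_eq hLY (hYH.trans hHν) hχ.1 hν hχ.2.2
    obtain ⟨β, hβ, h3, h4⟩ := Triple.span_down _ _ hp hq' hE hEq _ hlam hχ.1
      (over_iff.mp (over_of_res (κ := (a.π.subgroupComap Y).comp (Subgroup.subtype _)) hEq
        (Nat.cast_ne_zero.mpr hc) (hres h2)) :)
    refine ⟨β, ⟨hβ, ?_, fun z y h5 h6 => ?_⟩, h4⟩
    · rintro _ ⟨s, hs, rfl⟩
      refine (cA_eq_self_iff (hS'' ⟨s, hs, rfl⟩)).mp (Triple.span_unique _ hq' hE hEq fun x => ?_)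
      have h5 := h4 (cE _ (hS' hs) x)
      rw [cE_coe, hcl, (hχ.2.1 (hS.le ⟨s, hs, rfl⟩)).2 (a.π.subgroupComap Y x) _ (by
        change a.π _ = _
        rw [cE_coe]; simp; rfl), h4] at h5
      rw [h5]
      congr 1
      exact congrArg β (Subtype.ext (by
        change q s * q x * (q s)⁻¹ = q (s * x * s⁻¹); simp))
    · have h7 := h3 ⟨⟨z, hLY z.2⟩, Subtype.ext h5⟩
      rwa [show q.subgroupMap _ ⟨z, hLY z.2⟩ = y from Subtype.ext h6] at h7
  · obtain ⟨χ, hχ, h2⟩ := Triple.span_up _ _ hp hq' hE hEq _ hlam hβ.1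
      (fun z => hβ.2.2 ⟨_, hz z⟩ _ (congrArg Subtype.val z.2) rfl)
    refine ⟨χ, ⟨hχ, ?_, over_of_res hν (irr_one_ne_zero hβ.1) fun l => ?_⟩, h2⟩
    · rw [← hS]
      rintro _ ⟨s, hs, rfl⟩
      refine ⟨hSY (hS.le ⟨s, hs, rfl⟩), fun m m' e => ?_⟩
      obtain ⟨x, rfl⟩ := hp m
      rw [show m' = a.π.subgroupComap Y (cE _ (hS' hs) x) from Subtype.ext (by
        rw [e]; change _ = a.π (s * x * s⁻¹); simp; rfl), h2, h2, cE_coe, hcl]
      congr 1
      exact (hβ.2.1 ⟨s, hs, rfl⟩).2 _ _ (by change q (s * x * s⁻¹) = _; simp)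
    · obtain ⟨x, rfl⟩ := subgroupComap_surj a.π ((hLY.trans hYH).trans a.range.ge) l
      have := a.normal
      obtain ⟨z, hz', r, hr, e⟩ := mem_sup_of_normal_right.mp (a.sup.le x.2)
      have h3 : r ∈ L.comap a.π := a.sup ▸ mem_sup_right hr
      have h4 : a.π.subgroupComap L x = a.π.subgroupComap L ⟨r, h3⟩ := Subtype.ext (by
        change a.π x = a.π r
        rw [← e, map_mul, show a.π z = 1 from hz', one_mul])
      rw [h4]
      refine (h2 ⟨r, hLY h3⟩).trans ?_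
      rw [show q.subgroupMap _ ⟨r, hLY h3⟩ = 1 from Subtype.ext (hq.ge hr),
        a.E_eq ⟨r, h3⟩ (a.π.subgroupComap L ⟨r, h3⟩) rfl, a.μ_R _ hr, Units.val_one, one_mul]
  · obtain ⟨x, rfl⟩ := hp y
    rw [h, h']

theorem ACover.mult_eq (hν : IsIrrCharacter L ν) (hq : q.ker = a.R) {U Y : Subgroup X}
    [Fintype U] [Fintype ((U.comap a.π).map q)] (hLU : L ≤ U) (hUY : U ≤ Y) (hYH : Y ≤ H)
    {χ : Y → ℂ} {β : (Y.comap a.π).map q → ℂ}
    (h : ∀ x, χ (a.π.subgroupComap Y x) = β (q.subgroupMap _ x) * a.E x) {ψ : U → ℂ}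
    {γ : (U.comap a.π).map q → ℂ}
    (h' : ∀ x, ψ (a.π.subgroupComap U x) = γ (q.subgroupMap _ x) * a.E x) :
    mult (inclusion hUY) χ ψ = mult (inclusion (map_mono (comap_mono hUY))) β γ := by
  unfold mult
  rw [Triple.classInner_span _ _ (subgroupComap_surj a.π ((hUY.trans hYH).trans a.range.ge))
    (q.subgroupMap_surjective (U.comap a.π)) (isCharacter_restrict _ a.char)
    (a.isIrr_ker hν hq (hLU.trans (hUY.trans hYH)) hLU)
    (β := fun y => β (inclusion (map_mono (comap_mono hUY)) y))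
    (fun x => h (inclusion (comap_mono hUY) x)) h']

end cover

end CfsgLib.McKay
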