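import Mathlib
import Cfsg.Agent.Lib.McKay.Count
import Cfsg.Agent.Lib.PLocal.PSolvable
import Cfsg.Agent.Lib.Coprime.HallAmbient
import Cfsg.Agent.Lib.Char.Burnside
import Cfsg.Agent.Lib.Count.Subgroups
import Cfsg.Agent.Lib.PGroup.Basic

/-!
# Navarro-Wolf: `Irr_{p'}(G) ⊆ Irr_{q'}(G)` for `{p,q}`-solvable groups

If `G` is `p`-solvable and `q`-solvable and every irreducible character of `p'`-degree has
`q'`-degree, then every Sylow `p`-subgroup normalizes exactly one Sylow `q`-subgroup (`nw`).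
-/

set_option autoImplicit false

namespace CfsgLib.McKay

open Cfsg CfsgLib.Char CfsgLib.ChDeg CfsgLib.Glaub CfsgLib.Coprime CfsgLib.PLocal Subgroup
open scoped Pointwise commutatorElement

universe u

variable {G : Type u} [Group G] [Finite G] {p q : ℕ}

theorem exists_over_not_dvd (hp : p.Prime) (H : Subgroup G) (hH : ¬ p ∣ H.index) {ψ : H → ℂ}
    (hψ : IsIrrCharacter H ψ) (hd : ¬ p ∣ charDegree ψ) :
    ∃ χ, IsIrrCharacter G χ ∧ Over H.subtype χ ψ ∧ ¬ p ∣ charDegree χ := by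
  have := Fintype.ofFinite G
  have := Fintype.ofFinite H
  by_contra hcon
  push Not at hcon
  have h1 : p ∣ charDegree (indFun H ψ) := by
    refine dvd_deg_of_forall (isCharacter_indFun H (isCharacter_of_isIrr hψ)) fun χ hχ h => ?_
    refine hcon χ hχ (over_iff.mpr ?_)
    rw [classInner_indFun_left H ψ (isClassFunction_of_isIrr hχ)] at h
    intro h0
    apply h
    rw [← classInner_conj_symm]
    exact (congrArg _ h0).trans (map_zero _)
  rw [deg_ind H (isCharacter_of_isIrr hψ)] at h1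
  rcases (Nat.Prime.dvd_mul hp).1 h1 with h | h
  exacts [hH h, hd h]

theorem exists_ext_amb {N H : Subgroup G} (hNH : N ≤ H) {θ : N → ℂ} (hH : H ≤ stab N θ)
    (hθ : IsIrrCharacter N θ) (hcop : (Nat.card N).Coprime (N.relIndex H)) :
    ∃ η, IsIrrCharacter H η ∧ ∀ n, η (inclusion hNH n) = θ n := by
  have hH' := hH.trans (stab_le N θ)
  have := normal_subgroupOf_of_le_normalizer hH'
  have hc : (Nat.card (N.subgroupOf H)).Coprime (N.subgroupOf H).index := by
    rw [Nat.card_congr (subgroupOfEquivOfLe hNH).toEquiv]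
    exact hcop
  obtain ⟨η, ⟨h1, h2, -⟩, -⟩ := exists_canonical_of_coprime (N.subgroupOf H) hc
    (isIrr_comp_mulEquiv (subgroupOfEquivOfLe hNH) hθ) (by
      refine (inv_cj_iff (N.subgroupOf H) (fun x => θ (subgroupOfEquivOfLe hNH x))).2 ?_
      rw [← inertia_subgroupOf hNH hH', subgroupOf_eq_top]
      exact hH)
  exact ⟨η, h1, fun n => h2 ⟨inclusion hNH n, n.2⟩⟩

theorem centralizer_le_of_forall_inv {N A B : Subgroup G} (hAB : A ≤ B)
    (hB : B ≤ normalizer (N : Set G)) (hcop : (Nat.card N).Coprime (Nat.card B))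
    (hs : Group.IsSolvable B)
    (h : ∀ θ, IsIrrCharacter N θ → A ≤ stab N θ → B ≤ stab N θ) :
    N ⊓ centralizer (A : Set G) ≤ centralizer (B : Set G) := by
  have hsA : Group.IsSolvable A := Group.isSolvable_of_isSolvable_injective
    (inclusion_injective hAB)
  have hnB : ∀ s ∈ B, ∀ g ∈ N, s * g * s⁻¹ ∈ N := fun s hs g hg =>
    (mem_normalizer_iff.1 (hB hs) g).1 hg
  have hnA : ∀ s ∈ A, ∀ g ∈ N, s * g * s⁻¹ ∈ N := fun s hs => hnB s (hAB hs)
  set C : Subgroup G := N ⊓ centralizer (A : Set G) with hC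
  set D : Subgroup G := N ⊓ centralizer (B : Set G) with hD
  have hCN : C ≤ N := inf_le_left
  have hDN : D ≤ N := inf_le_left
  have hDC : D ≤ C := inf_le_inf_left _ (centralizer_le hAB)
  have h1 := card_invIrr_eq (conjAut A N hnA) (hcop.coprime_dvd_right (card_dvd_of_le hAB))
    (inclusion hCN) (inclusion_injective hCN) (range_inclusion_iff hnA hC hCN)
  have h2 := card_invIrr_eq (conjAut B N hnB) hcop
    (inclusion hDN) (inclusion_injective hDN) (range_inclusion_iff hnB hD hDN)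
  have h3 : Nat.card (InvIrr (conjAut A N hnA)) = Nat.card (InvIrr (conjAut B N hnB)) := by
    refine Nat.card_congr (Equiv.subtypeEquivRight fun χ => ?_)
    rw [inv_conjAut_iff, inv_conjAut_iff]
    refine ⟨fun h4 s hs => ?_, fun h4 s hs => h4 s (hAB hs)⟩
    exact (h χ χ.2 (fun a ha => ⟨hB (hAB ha), h4 a ha⟩) hs).2
  rw [h1, h2, card_irr_eq_card_conjClasses, card_irr_eq_card_conjClasses] at h3
  have map_mk : ∀ a : D, ConjClasses.map (inclusion hDC) (ConjClasses.mk a) =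
      ConjClasses.mk (inclusion hDC a) := fun _ => rfl
  have hinj : Function.Injective (ConjClasses.map (inclusion hDC)) := by
    intro K K' h2
    obtain ⟨c, rfl⟩ := ConjClasses.exists_rep K
    obtain ⟨c', rfl⟩ := ConjClasses.exists_rep K'
    simp only [map_mk, ConjClasses.mk_eq_mk_iff_isConj] at h2 ⊢
    obtain ⟨k, hk⟩ := isConj_iff.mp h2
    have hk' : (k : G) * c * (k : G)⁻¹ = c' := congrArg Subtype.val hk
    obtain ⟨d, hd, hd'⟩ := exists_centralizer_conj_eq hB hcop.symm (Or.inl hs)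
      k.2.1 c.2.2 (hk' ▸ c'.2.2)
    exact isConj_iff.mpr ⟨⟨d, hd⟩, Subtype.ext (hd'.trans hk')⟩
  have hsurj := (hinj.bijective_of_nat_card_le h3.le).2
  have htop : D.subgroupOf C = ⊤ := by
    refine CfsgLib.Count.eq_top_of_forall_exists_conj_mem _ fun x => ?_
    obtain ⟨K, hK⟩ := hsurj (ConjClasses.mk x)
    obtain ⟨d, rfl⟩ := ConjClasses.exists_rep K
    rw [map_mk, ConjClasses.mk_eq_mk_iff_isConj] at hK
    obtain ⟨g, hg⟩ := isConj_iff.mp hK.symm
    exact ⟨g, by rw [hg]; exact d.2⟩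
  exact (subgroupOf_eq_top.1 htop).trans inf_le_right

variable [hp : Fact p.Prime] [hq : Fact q.Prime]

omit [Finite G] in
theorem exists_normal_pq [Nontrivial G] (h1 : IsPSolvable p G) (h2 : IsPSolvable q G) :
    ∃ N : Subgroup G, N.Normal ∧ N ≠ ⊥ ∧ (IsPGroup p N ∨ IsPGroup q N ∨
      ((Nat.card N).Coprime p ∧ (Nat.card N).Coprime q)) := by
  obtain ⟨K, hK, hK0, -, h | h⟩ := PSolv.exists_normal_le h1 ⊤ top_ne_bot
  · exact ⟨K, hK, hK0, Or.inl h⟩
  obtain ⟨L, hL, hL0, hLK, h' | h'⟩ := PSolv.exists_normal_le h2 K hK0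
  · exact ⟨L, hL, hL0, Or.inr (Or.inl h')⟩
  · exact ⟨L, hL, hL0, Or.inr (Or.inr ⟨h.coprime_dvd_left (card_dvd_of_le hLK), h'⟩)⟩

theorem hallGood_pq (h1 : IsPSolvable p G) (h2 : IsPSolvable q G) : HallGood {p, q} G := by
  intro Q _ f hf hQ
  have := Finite.of_surjective f hf
  obtain ⟨N, hN, hN0, h | h | h⟩ := exists_normal_pq (PSolv.of_surjective h1 f hf)
    (PSolv.of_surjective h2 f hf)
  · exact ⟨N, hN, hN0, Or.inl (isPiNum_card_of_isPGroup hp.out h (by simp))⟩
  · exact ⟨N, hN, hN0, Or.inl (isPiNum_card_of_isPGroup hq.out h (by simp))⟩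
  · refine ⟨N, hN, hN0, Or.inr ⟨fun r hr hd hm => ?_, fun U hU => Or.inl ?_⟩⟩
    · rcases hm with rfl | rfl
      · exact (Nat.Prime.coprime_iff_not_dvd hr).1 h.1.symm hd
      · exact (Nat.Prime.coprime_iff_not_dvd hr).1 h.2.symm hd
    · exact isSolvable_of_prime_dvd_card hp.out hq.out fun r hr hd => hU r hr hd

theorem isPiHall_sup (P : Sylow p G) (Q : Sylow q G)
    (hPQ : (P : Subgroup G) ≤ normalizer ((Q : Subgroup G) : Set G)) :
    IsPiHall {p, q} ((P : Subgroup G) ⊔ Q) := by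
  refine isPiHall_iff.2 ⟨?_, fun r hr hd hm => ?_⟩
  · have h1 : Nat.card ((P : Subgroup G) ⊔ Q : Subgroup G) ∣ Nat.card P * Nat.card Q := by
      rw [sup_comm, mul_comm]
      exact card_sup_dvd_of_le_normalizer hPQ
    exact ((isPiNum_card_of_isPGroup hp.out P.isPGroup' (by simp)).mul
      (isPiNum_card_of_isPGroup hq.out Q.isPGroup' (by simp))).of_dvd h1
  · rcases hm with rfl | rfl
    · exact P.not_dvd_index (hd.trans (index_dvd_of_le le_sup_left))
    · exact Q.not_dvd_index (hd.trans (index_dvd_of_le le_sup_right))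

theorem exists_sylow_le (h1 : IsPSolvable p G) (h2 : IsPSolvable q G) (P : Sylow p G)
    (Q : Sylow q G) (hPQ : (P : Subgroup G) ≤ normalizer ((Q : Subgroup G) : Set G))
    {T : Subgroup G} (hPT : (P : Subgroup G) ≤ T) (hT : ¬ q ∣ T.index) :
    ∃ Q₁ : Sylow q G, (Q₁ : Subgroup G) ≤ T ∧
      (P : Subgroup G) ≤ normalizer ((Q₁ : Subgroup G) : Set G) := by
  obtain ⟨U, hU, hPU⟩ := (hallGood_pq (PSolv.subgroup h1 T) (PSolv.subgroup h2 T)).exists_isPiHallOf_ge
    hPT (isPiNum_card_of_isPGroup hp.out P.isPGroup' (by simp))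
  have hU' : IsPiHall {p, q} U := by
    rw [← isPiHallOf_top]
    refine isPiHallOf_trans hU le_top fun r hr hd hm => ?_
    rw [relIndex_top_right] at hd
    rcases hm with rfl | rfl
    · exact P.not_dvd_index (hd.trans (index_dvd_of_le hPT))
    · exact hT hd
  obtain ⟨g, hg⟩ := (hallGood_pq h1 h2).exists_conj_eq (isPiHall_sup P Q hPQ) hU'
  refine ⟨g • Q, ?_, ?_⟩
  · refine le_trans ?_ hU.1
    rw [← hg, Sylow.coe_subgroup_smul]
    exact Subgroup.pointwise_smul_le_pointwise_smul_iff.2 le_sup_right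
  · refine hPU.trans ?_
    rw [← hg]
    rintro _ ⟨y, hy, rfl⟩
    have hy' : y • Q = Q := Sylow.smul_eq_iff_mem_normalizer.2 (sup_le hPQ le_normalizer hy)
    refine Sylow.smul_eq_iff_mem_normalizer.1 ?_
    change (g * y * g⁻¹) • g • Q = g • Q
    rw [mul_smul, inv_smul_smul, mul_smul, hy']

/-- Every irreducible character of `p'`-degree has `q'`-degree. -/
def PQDeg (p q : ℕ) (G : Type u) [Group G] : Prop :=
  ∀ χ : G → ℂ, IsIrrCharacter G χ → ¬ p ∣ charDegree χ → ¬ q ∣ charDegree χ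

omit [Finite G] hp hq in
theorem PQDeg.quotient (h : PQDeg p q G) (N : Subgroup G) [N.Normal] : PQDeg p q (G ⧸ N) :=
  fun _ hχ => h _ (isIrr_infl N hχ)

omit hq in
theorem PQDeg.not_dvd_index (h : PQDeg p q G) {N H : Subgroup G} [N.Normal] (hNH : N ≤ H)
    (hH : ¬ p ∣ H.index) {η : H → ℂ} (hη : IsIrrCharacter H η) (hd : ¬ p ∣ charDegree η)
    {θ : N → ℂ} (hθ : IsIrrCharacter N θ) (hres : ∀ n, η (inclusion hNH n) = θ n) :
    ¬ q ∣ (inertia N θ).index := by
  have := Fintype.ofFinite N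
  obtain ⟨χ, hχ, ho, hd'⟩ := exists_over_not_dvd hp.out H hH hη hd
  have h1 : Over N.subtype χ θ := Over.trans (ι := H.subtype) (κ := inclusion hNH) (fun _ => rfl)
    (isCharacter_of_isIrr hχ) hη (isCharacter_of_isIrr hθ) ho
    (over_of_res hθ one_ne_zero (fun m => by rw [hres, one_mul]))
  exact fun h2 => h χ hχ hd' (h2.trans (index_inertia_dvd N hχ hθ (over_iff.mp h1 :)))

omit [Finite G] hp hq in
theorem sylow_eq_of_le_normalizer {Q R : Sylow q G}
    (h : (R : Subgroup G) ≤ normalizer ((Q : Subgroup G) : Set G)) : R = Q := by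
  have h1 := IsPGroup.inf_normalizer_sylow R.isPGroup' Q
  have h2 : (R : Subgroup G) ≤ Q := ((le_inf le_rfl h).trans h1.le).trans inf_le_right
  exact Sylow.ext (R.is_maximal' Q.isPGroup' h2).symm

omit hp in
theorem exists_smul_eq_of_le_sup {N : Subgroup G} [N.Normal] {Q R : Sylow q G}
    (h : (R : Subgroup G) ≤ N ⊔ Q) : ∃ n ∈ N, n • Q = R := by
  obtain ⟨k, hk, hk'⟩ := exists_conj_smul_eq_sylow (K := N ⊔ Q) le_sup_right Q.isPGroup'
    (fun h => Q.not_dvd_index (h.trans (relIndex_dvd_index_of_le le_sup_right))) h R.isPGroup'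
    (fun h' => R.not_dvd_index (h'.trans (relIndex_dvd_index_of_le h)))
  obtain ⟨n, hn, y, hy, rfl⟩ := mem_sup_of_normal_left.1 hk
  refine ⟨n, hn, ?_⟩
  have hy' : y • Q = Q := Sylow.smul_eq_iff_mem_normalizer.2 (le_normalizer hy)
  rw [← hy', ← mul_smul]
  exact Sylow.ext hk'

theorem nw_pcase (hpq : p ≠ q) {N : Subgroup G} [N.Normal] (P : Sylow p G) (Q : Sylow q G)
    (hNP : N ≤ P) (hK : ∀ x ∈ (P : Subgroup G), ((x • Q : Sylow q G) : Subgroup G) ≤ N ⊔ Q)
    (h : ∀ μ : P →* ℂˣ, (Q : Subgroup G) ≤ inertia N (fun n => μ (inclusion hNP n))) :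
    (P : Subgroup G) ≤ normalizer ((Q : Subgroup G) : Set G) := by
  have hcomm : ⁅N, (Q : Subgroup G)⁆ ≤ (_root_.commutator P).map (P : Subgroup G).subtype := by
    rw [commutator_comm, commutator_le]
    intro y hy n hn
    have hm : y * n * y⁻¹ ∈ N := Normal.conj_mem inferInstance n hn y
    refine ⟨⟨y * n * y⁻¹, hNP hm⟩ * (⟨n, hNP hn⟩ : P)⁻¹, ?_, rfl⟩
    by_contra hne
    have hne' : Abelianization.of ((⟨y * n * y⁻¹, hNP hm⟩ : P) * (⟨n, hNP hn⟩ : P)⁻¹) ≠ 1 := by
      intro h0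
      exact hne (by rw [← Abelianization.ker_of]; exact h0)
    obtain ⟨φ, hφ⟩ := CommGroup.exists_apply_ne_one_of_hasEnoughRootsOfUnity _ ℂ hne'
    apply hφ
    have h1 := (mem_inertia' N).1 (h (φ.comp Abelianization.of) hy) ⟨n, hn⟩
    have h2 : φ (Abelianization.of (⟨y * n * y⁻¹, hNP hm⟩ : P)) =
        φ (Abelianization.of (⟨n, hNP hn⟩ : P)) := Units.ext h1
    rw [map_mul, map_mul, h2, map_inv, map_inv, mul_inv_cancel]
  have hcop : (Nat.card Q).Coprime (Nat.card N) :=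
    (IsPGroup.coprime_card_of_ne q p hpq.symm _ _ Q.isPGroup' P.isPGroup').coprime_dvd_right
      (card_dvd_of_le hNP)
  have htop : (normalizer ((Q : Subgroup G) : Set G)).subgroupOf P = ⊤ := by
    refine CfsgLib.PGroup.eq_top_of_sup_commutator_eq_top P.isPGroup' ?_
    rw [eq_top_iff]
    rintro ⟨x, hx⟩ -
    obtain ⟨n, hn, hn'⟩ := exists_smul_eq_of_le_sup (hK x hx)
    obtain ⟨u, hu, c, hc, rfl⟩ := exists_commutator_mul_centralizer (K := N) (A := Q)
      le_normalizer_of_normal hcop (Or.inl (isSolvable_of_isPGroup Q.isPGroup')) hn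
    obtain ⟨u, hu', rfl⟩ := hcomm hu
    have hc' : c • Q = Q := Sylow.smul_eq_iff_mem_normalizer.2 (centralizer_le_normalizer _ hc.2)
    rw [mul_smul, hc'] at hn'
    have h3 : u⁻¹ * ⟨x, hx⟩ ∈ (normalizer ((Q : Subgroup G) : Set G)).subgroupOf P := by
      refine Sylow.smul_eq_iff_mem_normalizer.1 ?_
      change ((u : G)⁻¹ * x) • Q = Q
      rw [mul_smul, ← hn']
      exact inv_smul_smul _ _
    have h4 := mul_mem (mem_sup_right hu') (mem_sup_left h3)
    rwa [mul_inv_cancel_left] at h4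
  exact subgroupOf_eq_top.1 htop

theorem nw_aux (hpq : p ≠ q) (n : ℕ) : ∀ (G : Type u) [Group G] [Finite G], Nat.card G = n →
    IsPSolvable p G → IsPSolvable q G → PQDeg p q G → ∀ P : Sylow p G,
      ∃! Q : Sylow q G, (P : Subgroup G) ≤ normalizer ((Q : Subgroup G) : Set G) := by
  induction n using Nat.strong_induction_on with
  | _ n ih =>
  intro G _ _ hn h1 h2 hd P
  rcases subsingleton_or_nontrivial G with hG | hG
  · obtain ⟨Q⟩ := (inferInstance : Nonempty (Sylow q G))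
    exact ⟨Q, fun x _ => by rw [Subsingleton.elim x 1]; exact one_mem _,
      fun R _ => Sylow.ext (Subsingleton.elim _ _)⟩
  obtain ⟨N, hN, hN0, hc⟩ := exists_normal_pq h1 h2
  have hf := QuotientGroup.mk'_surjective N
  have hlt : Nat.card (G ⧸ N) < n := by
    rw [← hn, card_eq_card_quotient_mul_card_subgroup N]
    exact lt_mul_of_one_lt_right Nat.card_pos ((one_lt_card_iff_ne_bot N).2 hN0)
  obtain ⟨Q', hQ', hu⟩ := ih _ hlt (G ⧸ N) rfl (PSolv.quotient h1 N) (PSolv.quotient h2 N)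
    (hd.quotient N) (P.mapSurjective hf)
  obtain ⟨Q₀, rfl⟩ := Sylow.mapSurjective_surjective hf q Q'
  have hKeq : ∀ Q : Sylow q G, ((Q.mapSurjective hf : Sylow q (G ⧸ N)) : Subgroup (G ⧸ N)).comap
      (QuotientGroup.mk' N) = N ⊔ Q := fun Q => by
    rw [Sylow.coe_mapSurjective, comap_map_eq, QuotientGroup.ker_mk', sup_comm]
  have hPK : (P : Subgroup G) ≤ normalizer ((N ⊔ Q₀ : Subgroup G) : Set G) := by
    rw [← hKeq]
    exact le_normalizer_comap_of_le _ hQ'
  have ha : ∀ Q : Sylow q G, (P : Subgroup G) ≤ normalizer ((Q : Subgroup G) : Set G) →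
      N ⊔ Q = N ⊔ Q₀ := fun Q hQ => by
    rw [← hKeq, ← hKeq, hu (Q.mapSurjective hf) (le_normalizer_map_of_le _ hQ)]
  have hb : ∀ T : Subgroup G, N ≤ T → (P : Subgroup G) ≤ T → ¬ q ∣ T.index → N ⊔ Q₀ ≤ T := by
    intro T hNT hPT hT
    obtain ⟨Q₁, hQ₁, hPQ₁⟩ := exists_sylow_le (PSolv.quotient h1 N) (PSolv.quotient h2 N) _ _ hQ'
      (T := T.map (QuotientGroup.mk' N)) (map_mono hPT)
      (fun h => hT (h.trans (index_map_dvd T hf)))
    rw [← hKeq, ← hu Q₁ hPQ₁]
    refine (comap_mono hQ₁).trans ?_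
    rw [comap_map_eq, QuotientGroup.ker_mk', sup_eq_left.2 hNT]
  have hKx : ∀ x ∈ (P : Subgroup G), ((x • Q₀ : Sylow q G) : Subgroup G) ≤ N ⊔ Q₀ := fun x hx =>
    conj_smul_le_of_mem_normalizer (hPK hx) le_sup_right
  have hnorm : N ≤ normalizer ((Q₀ : Subgroup G) : Set G) →
      ∃! Q : Sylow q G, (P : Subgroup G) ≤ normalizer ((Q : Subgroup G) : Set G) := by
    intro h
    have hK := sup_le h (le_normalizer (H := (Q₀ : Subgroup G)))
    refine ⟨Q₀, fun x hx => Sylow.smul_eq_iff_mem_normalizer.1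
      (sylow_eq_of_le_normalizer ((hKx x hx).trans hK)), fun Q hQ => ?_⟩
    exact sylow_eq_of_le_normalizer (le_sup_right.trans ((ha Q hQ).le.trans hK))
  rcases hc with hc | hc | hc
  · have hNP : N ≤ P := hc.le_sylow_of_normal P
    refine hnorm (hNP.trans (nw_pcase hpq P Q₀ hNP hKx fun μ => (le_sup_right (a := N)).trans ?_))
    have hθ : IsIrrCharacter N (fun n => μ (inclusion hNP n)) :=
      isIrr_unitsHom (μ.comp (inclusion hNP))
    refine hb _ (le_inertia N (isClassFunction_of_isIrr hθ)) (fun x hx => ?_)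
      (hd.not_dvd_index hNP P.not_dvd_index (isIrr_unitsHom μ) ?_ hθ fun _ => rfl)
    · refine (mem_inertia' N).2 fun n => ?_
      have : inclusion hNP ⟨x * n * x⁻¹, hN.conj_mem n n.2 x⟩ =
          ⟨x, hx⟩ * inclusion hNP n * (⟨x, hx⟩ : P)⁻¹ := rfl
      rw [this, map_mul, map_mul, map_inv, mul_inv_cancel_comm]
    · rw [deg_eq_of_eq (n := 1) (by simp)]
      exact hp.out.not_dvd_one
  · exact hnorm ((hc.le_sylow_of_normal Q₀).trans le_normalizer)
  have hPN : (Nat.card P).Coprime (Nat.card N) := by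
    obtain ⟨a, ha⟩ := P.isPGroup'.exists_card_eq
    rw [ha]
    exact (hc.1.symm).pow_left a
  have hQN : ∀ Q : Sylow q G, (Nat.card Q).Coprime (Nat.card N) := fun Q => by
    obtain ⟨a, ha⟩ := Q.isPGroup'.exists_card_eq
    rw [ha]
    exact (hc.2.symm).pow_left a
  have hPK' : (Nat.card P).Coprime (Nat.card (N ⊔ Q₀ : Subgroup G)) :=
    (Nat.Coprime.mul_right hPN (IsPGroup.coprime_card_of_ne p q hpq _ _ P.isPGroup'
      Q₀.isPGroup')).coprime_dvd_right (card_sup_dvd_of_le_normalizer le_normalizer_of_normal)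
  obtain ⟨R, hRK, hR, hRi, hPR⟩ := exists_invariant_sylow' q hPK hPK'
    (Or.inl (isSolvable_of_isPGroup P.isPGroup'))
  have hRi' : ¬ q ∣ R.index := by
    rw [← relIndex_mul_index hRK]
    intro h
    rcases (Nat.Prime.dvd_mul hq.out).1 h with h | h
    · exact hRi h
    · exact Q₀.not_dvd_index (h.trans (index_dvd_of_le le_sup_right))
  refine ⟨hR.toSylow hRi', hPR, fun Q hQ => ?_⟩
  set Q₁ : Sylow q G := hR.toSylow hRi' with hQ₁
  have hPQ₁ : (P : Subgroup G) ≤ normalizer ((Q₁ : Subgroup G) : Set G) := hPR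
  obtain ⟨m, hm, hm'⟩ := exists_smul_eq_of_le_sup (N := N) (Q := Q₁) (R := Q)
    (le_sup_right.trans ((ha Q hQ).trans (ha Q₁ hPQ₁).symm).le)
  obtain ⟨c, hc', hc''⟩ := exists_centralizer_smul_eq (K := N) (A := P) le_normalizer_of_normal hPN
    (Or.inl (isSolvable_of_isPGroup P.isPGroup')) Q₁ hm
    (fun a ha => Sylow.smul_eq_iff_mem_normalizer.2 (hPQ₁ ha))
    (fun a ha => by rw [hm']; exact Sylow.smul_eq_iff_mem_normalizer.2 (hQ ha))
  have hH := isPiHall_iff.1 (isPiHall_sup P Q₁ hPQ₁)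
  have hcen := centralizer_le_of_forall_inv (N := N) (A := P) (B := (P : Subgroup G) ⊔ Q₁)
    le_sup_left le_normalizer_of_normal
    (Nat.coprime_of_dvd fun r hr h3 h4 => by
      rcases hH.1 r hr h4 with rfl | rfl
      · exact (Nat.Prime.coprime_iff_not_dvd hr).1 hc.1.symm h3
      · exact (Nat.Prime.coprime_iff_not_dvd hr).1 hc.2.symm h3)
    (isSolvable_of_prime_dvd_card hp.out hq.out fun r hr hd => hH.1 r hr hd)
    (fun θ hθ hPθ => by
      have hst : ∀ g, g ∈ stab N θ ↔ g ∈ inertia N θ := fun g => by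
        rw [mem_inertia', mem_stab]
        refine ⟨fun h n => h.2 _ _ rfl, fun h => ⟨le_normalizer_of_normal (mem_top g), ?_⟩⟩
        rintro m ⟨m', hm'⟩ h'
        subst h'
        exact h m
      refine sup_le hPθ (le_sup_right.trans ((ha Q₁ hPQ₁).le.trans fun g hg => (hst g).2 ?_))
      obtain ⟨η, hη, hres⟩ := exists_ext_amb (N := N) (H := N ⊔ P) le_sup_left
        (sup_le (le_stab (isClassFunction_of_isIrr hθ)) hPθ) hθ (by
          rw [relIndex_sup_of_le_normalizer le_normalizer_of_normal]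
          exact hPN.symm.coprime_dvd_right (relIndex_dvd_card _ _))
      refine hb _ (le_inertia N (isClassFunction_of_isIrr hθ)) (fun x hx => (hst x).1 (hPθ hx))
        (hd.not_dvd_index le_sup_left
          (fun h => P.not_dvd_index (h.trans (index_dvd_of_le le_sup_right))) hη ?_ hθ hres) hg
      rw [deg_congr (ψ := θ) (by rw [← hres, map_one])]
      exact fun h => (Nat.Prime.coprime_iff_not_dvd hp.out).1 hc.1.symm
        (h.trans (deg_dvd_card hθ)))
  rw [← hm', ← hc'']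
  have h5 : c ∈ centralizer ((Q₁ : Subgroup G) : Set G) := fun y hy =>
    hcen hc' y (mem_sup_right hy)
  exact Sylow.smul_eq_iff_mem_normalizer.2 (centralizer_le_normalizer _ h5)

/-- Navarro-Wolf. -/
theorem nw (hpq : p ≠ q) (h1 : IsPSolvable p G) (h2 : IsPSolvable q G) (hd : PQDeg p q G)
    (P : Sylow p G) : ∃! Q : Sylow q G, (P : Subgroup G) ≤ normalizer ((Q : Subgroup G) : Set G) :=
  nw_aux hpq _ G rfl h1 h2 hd P

end CfsgLib.McKay
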